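import Cfsg.Agent.H776.P4.Shape

/-!
# S5210, P4-3T (helper473): the subgroups `D` of `TP K` for `q = 3`

`stThreeT : StGrp → StThreeT`
-/

set_option autoImplicit false
set_option linter.unusedSectionVars false

namespace Cfsg.Agent.H473.P4

open Cfsg Cfsg.Agent.H776.P4
open Cfsg.Agent.H756.PU (HypK)

universe u

/-! ### the field with nine elements -/

/-- `K = F₉`, `ι² = -1` -/
structure Nine (K : Type u) [Field K] [StarRing K] (ι : K) : Prop where
  three : (3 : K) = 0
  star_eq : ∀ x : K, star x = x ^ 3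
  card : Nat.card K = 9
  sq : ι * ι = -1

section

variable {K : Type u} [Field K] [StarRing K] {ι : K}

theorem nine_of {p n : ℕ} (hK : HypK K p n) (h3 : p ^ n = 3) (hι : ι * ι = -1) : Nine K ι := by
  have hp : p = 3 := by
    have h1 : p ∣ 3 := by
      rw [← h3]
      exact dvd_pow_self p (by have := hK.hn; omega)
    exact (Nat.prime_dvd_prime_iff_eq hK.pp Nat.prime_three).mp h1
  subst hp
  refine ⟨?_, fun x => by rw [hK.star_eq, h3], by rw [hK.card, h3]; norm_num, hι⟩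
  have := hK.char
  exact_mod_cast CharP.cast_eq_zero K 3

namespace Nine

variable (h : Nine K ι)

include h

theorem two : (2 : K) = -1 := by
  linear_combination h.three

theorem neg_ne : (-1 : K) ≠ 1 := by
  intro h1
  have h2 := h.two
  have h3 : (1 : K) = 0 := by linear_combination h1 + h2
  exact one_ne_zero h3

theorem star_i : star ι = - ι := by
  rw [h.star_eq]
  linear_combination ι * h.sq

theorem i4 : ι ^ 4 = 1 := by
  linear_combination (ι * ι - 1) * h.sq

theorem i2 : ι ^ 2 = -1 := by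
  rw [pow_two]
  exact h.sq

theorem pow_mod (n : ℕ) : ι ^ n = ι ^ (n % 4) := by
  conv_lhs => rw [← Nat.mod_add_div n 4, pow_add, pow_mul, h.i4, one_pow, mul_one]

theorem ord_i : orderOf ι = 4 := by
  have := orderOf_eq_prime_pow (x := ι) (p := 2) (n := 1) (by
    rw [pow_one, h.i2]
    exact h.neg_ne) (by
    show ι ^ 4 = 1
    exact h.i4)
  simpa using this

theorem pow_inj {m n : ℕ} (hm : m < 4) (hn : n < 4) (h1 : ι ^ m = ι ^ n) : m = n :=
  pow_injOn_Iio_orderOf (by rw [h.ord_i]; exact hm) (by rw [h.ord_i]; exact hn) h1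

theorem z2 : (1 + ι) ^ 2 = -ι := by
  linear_combination h.sq + ι * h.three

theorem z4 : (1 + ι) ^ 4 = -1 := by
  have h1 := h.z2
  have h2 : (1 + ι) ^ 4 = ((1 + ι) ^ 2) ^ 2 := by ring
  rw [h2, h1]
  linear_combination h.sq

theorem z8 : (1 + ι) ^ 8 = 1 := by
  have h2 : (1 + ι) ^ 8 = ((1 + ι) ^ 4) ^ 2 := by ring
  rw [h2, h.z4]
  ring

theorem ord_z : orderOf (1 + ι) = 8 := by
  have := orderOf_eq_prime_pow (x := 1 + ι) (p := 2) (n := 2) (by
    show ¬ (1 + ι) ^ 4 = 1
    rw [h.z4]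
    exact h.neg_ne) (by
    show (1 + ι) ^ 8 = 1
    exact h.z8)
  simpa using this

theorem z_ne : (1 + ι) ≠ 0 := by
  intro h1
  have h2 := h.z8
  rw [h1] at h2
  simp at h2

theorem exists_pow (x : K) (hx : x ≠ 0) : ∃ i < 8, (1 + ι) ^ i = x := by
  have hf : Finite K := Nat.finite_of_card_ne_zero (by rw [h.card]; norm_num)
  have := Fintype.ofFinite K
  have h1 : x ^ 8 = 1 := by
    have h2 := FiniteField.pow_card_sub_one_eq_one x hx
    rw [← Nat.card_eq_fintype_card, h.card] at h2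
    exact h2
  have h3 : IsPrimitiveRoot (1 + ι) 8 := by
    have := IsPrimitiveRoot.orderOf (1 + ι)
    rw [h.ord_z] at this
    exact this
  exact h3.eq_pow_of_pow_eq_one h1

theorem zpow_inj {m n : ℕ} (hm : m < 8) (hn : n < 8) (h1 : (1 + ι) ^ m = (1 + ι) ^ n) : m = n :=
  pow_injOn_Iio_orderOf (by rw [h.ord_z]; exact hm) (by rw [h.ord_z]; exact hn) h1

theorem star_z : star (1 + ι) = 1 - ι := by
  rw [star_add, star_one, h.star_i]
  ring

theorem z_quot (n : ℕ) : (1 + ι) ^ n * (star ((1 + ι) ^ n))⁻¹ = ι ^ n := by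
  have h1 : (1 + ι) = ι * star (1 + ι) := by
    rw [h.star_z]
    linear_combination h.sq
  have h2 : star ((1 + ι) ^ n) ≠ 0 := by
    rw [star_ne_zero]
    exact pow_ne_zero n h.z_ne
  rw [mul_inv_eq_iff_eq_mul₀ h2, star_pow, ← mul_pow, ← h1]

end Nine

/-- the field automorphisms -/
def tb : Bool → (K ≃+* K)
  | false => RingEquiv.refl K
  | true => starRingAut

def lb : Bool → K
  | false => 1
  | true => -1

theorem tb_false (x : K) : tb false x = x := rfl
theorem tb_true (x : K) : tb true x = star x := rfl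

theorem Nine.tau (h : Nine K ι) (τ : K ≃+* K) : ∃ b : Bool, τ = tb b := by
  have h1 : τ ι * τ ι = ι * ι := by
    rw [← map_mul, h.sq, map_neg, map_one]
  rcases mul_self_eq_mul_self_iff.mp h1 with h2 | h2
  · refine ⟨false, RingEquiv.ext fun x => ?_⟩
    by_cases hx : x = 0
    · subst hx
      simp
    · obtain ⟨i, _, rfl⟩ := h.exists_pow x hx
      rw [map_pow, map_add, map_one, h2]
      rfl
  · refine ⟨true, RingEquiv.ext fun x => ?_⟩
    by_cases hx : x = 0
    · subst hx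
      simp
    · obtain ⟨i, _, rfl⟩ := h.exists_pow x hx
      rw [map_pow, map_add, map_one, h2, ← h.star_i, tb_true, star_pow, star_add, star_one]

theorem Nine.el (h : Nine K ι) {l : K} (hl : l ≠ 0) (hs : star l = l) : ∃ j : Bool, l = lb j := by
  rw [h.star_eq] at hs
  have h1 : l * l = 1 := by
    have h2 : l * (l * l) = l * 1 := by
      rw [mul_one]
      linear_combination hs
    exact mul_left_cancel₀ hl h2
  rcases mul_self_eq_one_iff.mp h1 with h2 | h2
  · exact ⟨false, h2⟩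
  · exact ⟨true, h2⟩

theorem Nine.lb_eq (h : Nine K ι) (j : Bool) : (lb j : K) = ι ^ (2 * j.toNat) := by
  cases j with
  | false => simp [lb]
  | true => simp [lb, h.i2]

theorem Nine.lb_inj (h : Nine K ι) {j j' : Bool} (h1 : (lb j : K) = lb j') : j = j' := by
  have h2 := h.neg_ne
  cases j <;> cases j' <;> simp_all [lb, eq_comm]

theorem Nine.tb_i (h : Nine K ι) (b : Bool) : (tb b ι : K) = ι ^ (bif b then 3 else 1) := by
  cases b with
  | false => simp [tb_false]
  | true =>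
    rw [tb_true, h.star_eq]
    rfl

theorem Nine.tb_inj (h : Nine K ι) {b b' : Bool} (h1 : (tb b ι : K) = tb b' ι) : b = b' := by
  rw [h.tb_i, h.tb_i] at h1
  have h2 := h.pow_inj (by cases b <;> simp) (by cases b' <;> simp) h1
  cases b <;> cases b' <;> simp_all

/-! ### automorphisms -/

theorem tor_ext {α β : MulAut (PG K)} {s l : K} {τ : K ≃+* K} (h1 : IsTorP α s l τ) (h2 : IsTorP β s l τ) :
    α = β := by
  ext g
  · rw [h1.r, h2.r]
  · rw [h1.a, h2.a]
  · rw [h1.b, h2.b]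
  · rw [h1.c, h2.c]

theorem tor_uniq {α : MulAut (PG K)} {s l s' l' : K} {τ τ' : K ≃+* K} (h1 : IsTorP α s l τ)
    (h2 : IsTorP α s' l' τ') : s = s' ∧ l = l' ∧ ∀ x, τ x = τ' x := by
  have hr : ∀ x : K, s * τ x = s' * τ' x := by
    intro x
    have := h1.r ⟨x, 0, 0, 0, by simp, by simp⟩
    rw [h2.r] at this
    exact this.symm
  have hs : s = s' := by simpa using hr 1
  subst hs
  refine ⟨rfl, ?_, fun x => mul_left_cancel₀ h1.ns (hr x)⟩
  have := h1.c ⟨0, 0, 0, 1, by simp, by simp⟩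
  rw [h2.c] at this
  simpa using this.symm

theorem tor_mul {α β : MulAut (PG K)} {s l s' l' : K} {τ τ' : K ≃+* K} (h1 : IsTorP α s l τ)
    (h2 : IsTorP β s' l' τ') : IsTorP (α * β) (s * τ s') (l * τ l') (τ'.trans τ) where
  ns := mul_ne_zero h1.ns (by simpa using h2.ns)
  nl := mul_ne_zero h1.nl (by simpa using h2.nl)
  sl := by rw [star_mul', h1.sl, ← h1.tst, h2.sl]
  tst x := by
    show τ (τ' (star x)) = star (τ (τ' x))
    rw [h2.tst, h1.tst]
  r g := by
    show (α (β g)).r = _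
    rw [h1.r, h2.r, map_mul, mul_assoc]
    rfl
  a g := by
    show (α (β g)).a = _
    rw [h1.a, h2.a, map_mul, map_mul, map_mul, h1.tst, star_mul']
    show _ = _ * τ (τ' g.a)
    ring
  b g := by
    show (α (β g)).b = _
    rw [h1.b, h2.b, map_mul, map_mul]
    show _ = _ * τ (τ' g.b)
    ring
  c g := by
    show (α (β g)).c = _
    rw [h1.c, h2.c, map_mul, mul_assoc]
    rfl

/-! ### the index set -/

/-- the index set -/
abbrev X := Fin 8 × Bool × Bool

/-- the class of an index: the action on the plane is `κ ↦ ι ^ e * κ` or `ι ^ e * star κ` -/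
def qx (x : X) : ℕ × Bool := ((x.1.val + 2 * x.2.1.toNat) % 4, x.2.2)

/-- composition of the classes -/
def qc (a b : ℕ × Bool) : ℕ × Bool := ((a.1 + (bif a.2 then 3 else 1) * b.1) % 4, xor a.2 b.2)

variable (ι) in
/-- `α` has index `x` -/
def Par (α : MulAut (PG K)) (x : X) : Prop := IsTorP α ((1 + ι) ^ x.1.val) (lb x.2.1) (tb x.2.2)

theorem par_ext {α β : MulAut (PG K)} {x : X} (h1 : Par ι α x) (h2 : Par ι β x) : α = β := tor_ext h1 h2

theorem Nine.par_inj (h : Nine K ι) {α : MulAut (PG K)} {x y : X} (h1 : Par ι α x) (h2 : Par ι α y) : x = y := by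
  obtain ⟨hs, hl, ht⟩ := tor_uniq h1 h2
  obtain ⟨i, j, b⟩ := x
  obtain ⟨i', j', b'⟩ := y
  have e1 : i = i' := Fin.ext (h.zpow_inj i.2 i'.2 hs)
  have e2 : j = j' := h.lb_inj hl
  have e3 : b = b' := h.tb_inj (ht ι)
  rw [e1, e2, e3]

theorem Nine.exists_par (h : Nine K ι) {α : MulAut (PG K)} {s l : K} {τ : K ≃+* K} (h1 : IsTorP α s l τ) :
    ∃ x, Par ι α x := by
  obtain ⟨i, hi, hs⟩ := h.exists_pow s h1.ns
  obtain ⟨j, hl⟩ := h.el h1.nl h1.sl
  obtain ⟨b, ht⟩ := h.tau τ
  refine ⟨(⟨i, hi⟩, j, b), ?_⟩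
  show IsTorP α ((1 + ι) ^ i) (lb j) (tb b)
  rw [hs, ← hl, ← ht]
  exact h1

/-- the multiplier -/
theorem Nine.mu (h : Nine K ι) (x : X) :
    (lb x.2.1 : K) * (1 + ι) ^ x.1.val * (star ((1 + ι) ^ x.1.val))⁻¹ = ι ^ (qx x).1 := by
  rw [mul_assoc, h.z_quot, h.lb_eq, ← pow_add, h.pow_mod]
  unfold qx
  rw [add_comm]

theorem Nine.act (h : Nine K ι) (x : X) (κ : K) :
    actK ((1 + ι) ^ x.1.val) (lb x.2.1) (tb x.2.2) κ = ι ^ (qx x).1 * tb (qx x).2 κ := by
  unfold actK
  rw [h.mu x]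
  rfl

theorem qx_lt (x : X) : (qx x).1 < 4 := Nat.mod_lt _ (by norm_num)

/-- composition -/
theorem Nine.par_mul (h : Nine K ι) {α β : MulAut (PG K)} {x y w : X} (h1 : Par ι α x) (h2 : Par ι β y)
    (h3 : Par ι (α * β) w) : qx w = qc (qx x) (qx y) := by
  obtain ⟨hs, hl, ht⟩ := tor_uniq h3 (tor_mul h1 h2)
  have e1 : ι ^ (qx w).1 = ι ^ (qc (qx x) (qx y)).1 := by
    rw [← h.mu w, hs, hl]
    have e2 : (lb x.2.1 * tb x.2.2 (lb y.2.1) : K) * ((1 + ι) ^ x.1.val * tb x.2.2 ((1 + ι) ^ y.1.val)) *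
        (star ((1 + ι) ^ x.1.val * tb x.2.2 ((1 + ι) ^ y.1.val)))⁻¹ =
        (lb x.2.1 * (1 + ι) ^ x.1.val * (star ((1 + ι) ^ x.1.val))⁻¹) *
          tb x.2.2 (lb y.2.1 * (1 + ι) ^ y.1.val * (star ((1 + ι) ^ y.1.val))⁻¹) := by
      rw [map_mul (tb x.2.2), map_mul (tb x.2.2), map_inv₀ (tb x.2.2), h1.tst, star_mul', mul_inv]
      ring
    rw [e2, h.mu x, h.mu y, map_pow, h.tb_i, ← pow_mul, ← pow_add, h.pow_mod]
    rfl
  have e2 : (qx w).2 = (qc (qx x) (qx y)).2 := by
    have e3 := ht ι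
    have e4 : (tb w.2.2 ι : K) = tb (xor x.2.2 y.2.2) ι := by
      rw [e3]
      show tb x.2.2 (tb y.2.2 ι) = _
      rw [h.tb_i y.2.2, map_pow, h.tb_i x.2.2, h.tb_i, ← pow_mul, h.pow_mod]
      generalize x.2.2 = a
      generalize y.2.2 = b
      cases a <;> cases b <;> rfl
    exact h.tb_inj e4
  exact Prod.ext (h.pow_inj (qx_lt w) (Nat.mod_lt _ (by norm_num)) e1) e2

/-- the automorphisms exist -/
def HasAll (K : Type u) [Field K] [StarRing K] : Prop :=
  (∀ (s l : K) (τ : K ≃+* K), s ≠ 0 → l ≠ 0 → star l = l → ∃ α, IsTorP α s l τ) ∧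
    (∀ α ∈ TP K, ∃ s l τ, IsTorP α s l τ)

theorem Nine.exists_aut (h : Nine K ι) (hG : HasAll K) (x : X) : ∃ α, Par ι α x := by
  refine hG.1 _ _ _ (pow_ne_zero _ h.z_ne) ?_ ?_
  · cases x.2.1 with
    | false => exact one_ne_zero
    | true => exact neg_ne_zero.mpr one_ne_zero
  · cases x.2.1 with
    | false => exact star_one K
    | true =>
      show star (-1 : K) = -1
      rw [star_neg, star_one]

theorem par_mem {α : MulAut (PG K)} {x : X} (h1 : Par ι α x) : α ∈ TP K :=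
  Subgroup.subset_closure ⟨_, _, _, h1⟩

open Classical in
/-- the indices of the elements of `D` -/
noncomputable def SD (Φ : X → MulAut (PG K)) (D : Subgroup (MulAut (PG K))) : Finset X :=
  Finset.univ.filter fun x => Φ x ∈ D

theorem mem_SD {Φ : X → MulAut (PG K)} {D : Subgroup (MulAut (PG K))} {x : X} : x ∈ SD Φ D ↔ Φ x ∈ D := by
  simp [SD]

section

variable (h : Nine K ι) (hG : HasAll K) {Φ : X → MulAut (PG K)} (hΦ : ∀ x, Par ι (Φ x) x)

include h hG hΦ

theorem exists_index {α : MulAut (PG K)} (hα : α ∈ TP K) : ∃ x, Φ x = α := by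
  obtain ⟨s, l, τ, h1⟩ := hG.2 α hα
  obtain ⟨x, hx⟩ := h.exists_par h1
  exact ⟨x, par_ext (hΦ x) hx⟩

theorem card_D {D : Subgroup (MulAut (PG K))} (hD : D ≤ TP K) : Nat.card D = (SD Φ D).card := by
  have h1 : Nat.card (SD Φ D) = (SD Φ D).card := by
    rw [Nat.card_eq_fintype_card, Fintype.card_coe]
  rw [← h1]
  refine (Nat.card_congr (Equiv.ofBijective (fun x : SD Φ D => (⟨Φ x.1, mem_SD.mp x.2⟩ : D)) ⟨?_, ?_⟩)).symm
  · rintro ⟨x, hx⟩ ⟨y, hy⟩ hxy
    have h2 : Φ x = Φ y := congrArg Subtype.val hxy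
    have h3 := hΦ y
    rw [← h2] at h3
    exact Subtype.ext (h.par_inj (hΦ x) h3)
  · rintro ⟨α, hα⟩
    obtain ⟨x, hx⟩ := exists_index h hG hΦ (hD hα)
    exact ⟨⟨x, mem_SD.mpr (by rw [hx]; exact hα)⟩, Subtype.ext hx⟩

theorem eq_of_SD {D D' : Subgroup (MulAut (PG K))} (hD : D ≤ TP K) (hD' : D' ≤ TP K) (h1 : SD Φ D = SD Φ D') :
    D = D' := by
  ext α
  constructor
  · intro hα
    obtain ⟨x, rfl⟩ := exists_index h hG hΦ (hD hα)
    exact mem_SD.mp (h1 ▸ mem_SD.mpr hα)
  · intro hα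
    obtain ⟨x, rfl⟩ := exists_index h hG hΦ (hD' hα)
    exact mem_SD.mp (h1 ▸ mem_SD.mpr hα)

theorem cls_zero {D : Subgroup (MulAut (PG K))}
    (hD : HasTorP D (fun t => t ^ 2) (fun t => (t * star t)⁻¹)) (x : X) (hx : qx x = (0, false)) : Φ x ∈ D := by
  have key : ∀ n : ℕ, (1 + ι) ^ (2 * n) = (1 + ι) ^ x.1.val → (lb x.2.1 : K) = ((1 + ι) ^ (4 * n))⁻¹ → Φ x ∈ D := by
    intro n h1 h2
    refine hD ((1 + ι) ^ n) (pow_ne_zero _ h.z_ne) (Φ x) ?_
    have h3 := hΦ x
    unfold Par at h3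
    have h4 : x.2.2 = false := congrArg Prod.snd hx
    rw [h4, h2, ← h1] at h3
    have h5 : (1 + ι) ^ n * star ((1 + ι) ^ n) = (1 + ι) ^ (4 * n) := by
      rw [h.star_eq, ← pow_mul, ← pow_add]
      congr 1
      ring
    show IsTorP (Φ x) (((1 + ι) ^ n) ^ 2) (((1 + ι) ^ n * star ((1 + ι) ^ n))⁻¹) (RingEquiv.refl K)
    rw [h5, ← pow_mul, mul_comm n 2]
    exact h3
  obtain ⟨⟨i, hi⟩, j, b⟩ := x
  have h1 : (i + 2 * j.toNat) % 4 = 0 := congrArg Prod.fst hx
  have e4 : ∀ m : ℕ, (1 + ι) ^ (4 * m) = (-1) ^ m := fun m => by rw [pow_mul, h.z4]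
  cases j with
  | false =>
    simp only [Bool.toNat_false, mul_zero, add_zero] at h1
    have h2 : i = 0 ∨ i = 4 := by omega
    rcases h2 with rfl | rfl
    · exact key 0 rfl (by simp [lb])
    · exact key 2 rfl (by rw [e4]; simp [lb])
  | true =>
    simp only [Bool.toNat_true, mul_one] at h1
    have h2 : i = 2 ∨ i = 6 := by omega
    rcases h2 with rfl | rfl
    · exact key 1 rfl (by rw [e4]; simp [lb])
    · exact key 3 rfl (by
        rw [e4]
        show (-1 : K) = _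
        have : ((-1 : K) ^ 3) = -1 := by ring
        rw [this]
        simp)

theorem cls_eq {D : Subgroup (MulAut (PG K))} (hDT : D ≤ TP K)
    (hD : HasTorP D (fun t => t ^ 2) (fun t => (t * star t)⁻¹)) {x y : X} (hxy : qx x = qx y) (hx : Φ x ∈ D) :
    Φ y ∈ D := by
  have h1 : Φ y * (Φ x)⁻¹ ∈ TP K := (TP K).mul_mem (par_mem (hΦ y)) ((TP K).inv_mem (hDT hx))
  obtain ⟨z, hz⟩ := exists_index h hG hΦ h1
  have h2 : Φ z * Φ x = Φ y := by rw [hz, inv_mul_cancel_right]
  have h3 : Par ι (Φ z * Φ x) y := by rw [h2]; exact hΦ y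
  have h4 := h.par_mul (hΦ z) (hΦ x) h3
  rw [← hxy] at h4
  have h5 : (qx z).2 = false := by
    have := congrArg Prod.snd h4
    have h6 : (qx x).2 = xor (qx z).2 (qx x).2 := this
    revert h6
    cases (qx z).2 <;> cases (qx x).2 <;> simp
  have h6 : (qx z).1 = 0 := by
    have := congrArg Prod.fst h4
    have h6 : (qx x).1 = ((qx z).1 + (bif (qx z).2 then 3 else 1) * (qx x).1) % 4 := this
    rw [h5] at h6
    simp only [cond_false, one_mul] at h6
    have h7 := qx_lt z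
    have h8 := qx_lt x
    omega
  have h7 := cls_zero h hG hΦ hD z (Prod.ext h6 h5)
  rw [← h2]
  exact D.mul_mem h7 hx

theorem cls_mul {D : Subgroup (MulAut (PG K))} (hDT : D ≤ TP K)
    (hD : HasTorP D (fun t => t ^ 2) (fun t => (t * star t)⁻¹)) {a b : ℕ × Bool} (ha : a.1 < 4) (hb : b.1 < 4)
    (h1 : ∀ x, qx x = a → Φ x ∈ D) (h2 : ∀ x, qx x = b → Φ x ∈ D) : ∀ x, qx x = qc a b → Φ x ∈ D := by
  have hs : ∀ a : ℕ × Bool, a.1 < 4 → ∃ x, qx x = a := by
    rintro ⟨e, b⟩ he
    have he' : e < 4 := he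
    refine ⟨(⟨e, by omega⟩, false, b), Prod.ext ?_ rfl⟩
    show (e + 2 * 0) % 4 = e
    omega
  obtain ⟨x, hx⟩ := hs a ha
  obtain ⟨y, hy⟩ := hs b hb
  have h3 := D.mul_mem (h1 x hx) (h2 y hy)
  obtain ⟨w, hw⟩ := exists_index h hG hΦ (hDT h3)
  have h4 := h.par_mul (hΦ x) (hΦ y) (w := w) (by rw [← hw]; exact hΦ w)
  rw [hx, hy] at h4
  intro z hz
  exact cls_eq h hG hΦ hDT hD (h4.trans hz.symm) (by rw [hw]; exact h3)

end

/-- the two possible index sets, for the reflection with multiplier `ι ^ c` -/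
def A8 (c : ℕ) : Finset X := Finset.univ.filter fun x => qx x = (0, false) ∨ qx x = (c, true)
def A16 (c : ℕ) : Finset X :=
  Finset.univ.filter fun x => qx x = (0, false) ∨ qx x = (2, false) ∨ qx x = (c, true) ∨ qx x = ((c + 2) % 4, true)

theorem card_A8 {c : ℕ} (hc : c < 4) : (A8 c).card = 8 := by
  interval_cases c <;> decide +kernel

theorem card_A16 {c : ℕ} (hc : c < 4) : (A16 c).card = 16 := by
  interval_cases c <;> decide +kernel

theorem Nine.pm (h : Nine K ι) {n : ℕ} {v : K} (hv : v ≠ 0) (h1 : ι ^ n * v = v ∨ ι ^ n * v = -v) :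
    n % 4 = 0 ∨ n % 4 = 2 := by
  have h4 : n % 4 < 4 := Nat.mod_lt _ (by norm_num)
  rcases h1 with h1 | h1
  · left
    have h2 : ι ^ n = ι ^ 0 := by
      rw [pow_zero]
      exact mul_right_cancel₀ hv (by rw [h1, one_mul])
    rw [h.pow_mod n] at h2
    exact h.pow_inj h4 (by norm_num) h2
  · right
    have h2 : ι ^ n = ι ^ 2 := by
      rw [h.i2]
      exact mul_right_cancel₀ hv (by rw [h1, neg_one_mul])
    rw [h.pow_mod n] at h2
    exact h.pow_inj h4 (by norm_num) h2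

theorem cfg_data (h : Nine K ι) (T : Fin 6) (hT : T = 1 ∨ T = 2 ∨ T = 3 ∨ T = 4) :
    ∃ c < 4, ∃ v : K, v ≠ 0 ∧ v ∈ Cfg ι T ∧ (∀ w ∈ Cfg ι T, w = 0 ∨ w = v ∨ w = -v) ∧ star v = ι ^ c * v ∧
      ∀ f : K → K, (∀ x, f x = ι ^ c * star x) → CfgMap ι T f := by
  have hi : ι ≠ 0 := by
    intro h1
    have := h.sq
    rw [h1] at this
    simp at this
  have hz' : (1 - ι) ≠ 0 := by
    rw [← h.star_z]
    exact star_ne_zero.mpr h.z_ne
  rcases hT with rfl | rfl | rfl | rfl
  · refine ⟨0, by norm_num, 1, one_ne_zero, ?_, ?_, by simp, fun f hf x => by rw [hf]; simp⟩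
    · show (1 : K) ∈ ({0, 1, -1} : Set K)
      simp
    · intro w hw
      have hw' : w ∈ ({0, 1, -1} : Set K) := hw
      simpa using hw'
  · refine ⟨2, by norm_num, ι, hi, ?_, ?_, by rw [h.star_i, h.i2]; ring, fun f hf x => by rw [hf, h.i2]; ring⟩
    · show ι ∈ ({0, ι, -ι} : Set K)
      simp
    · intro w hw
      have hw' : w ∈ ({0, ι, -ι} : Set K) := hw
      simpa using hw'
  · refine ⟨3, by norm_num, 1 + ι, h.z_ne, ?_, ?_, ?_, fun f hf x => ?_⟩
    · show (1 + ι) ∈ ({1 + ι, -(1 + ι)} : Set K)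
      simp
    · intro w hw
      have hw' : w ∈ ({1 + ι, -(1 + ι)} : Set K) := hw
      exact Or.inr (by simpa using hw')
    · rw [h.star_z]
      linear_combination (1 - ι - ι * ι) * h.sq
    · rw [hf]
      linear_combination (ι * star x) * h.sq
  · refine ⟨1, by norm_num, 1 - ι, hz', ?_, ?_, ?_, fun f hf x => ?_⟩
    · show (1 - ι) ∈ ({1 - ι, -(1 - ι)} : Set K)
      simp
    · intro w hw
      have hw' : w ∈ ({1 - ι, -(1 - ι)} : Set K) := hw
      exact Or.inr (by simpa using hw')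
    · rw [star_sub, star_one, h.star_i]
      linear_combination h.sq
    · rw [hf]
      ring

theorem main14 (h : Nine K ι) (hG : HasAll K) {Φ : X → MulAut (PG K)} (hΦ : ∀ x, Par ι (Φ x) x) (T : Fin 6)
    {c : ℕ} (hc : c < 4) {v : K} (hv : v ≠ 0) (hvT : v ∈ Cfg ι T) (hT : ∀ w ∈ Cfg ι T, w = 0 ∨ w = v ∨ w = -v)
    (hsv : star v = ι ^ c * v) (hm : ∀ f : K → K, (∀ x, f x = ι ^ c * star x) → CfgMap ι T f)
    {D : Subgroup (MulAut (PG K))} (hDT : D ≤ TP K)
    (hD : HasTorP D (fun t => t ^ 2) (fun t => (t * star t)⁻¹)) (hI : InvK D (Cfg ι T))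
    (hM : ∀ (α : MulAut (PG K)) (s l : K) (τ : K ≃+* K), IsTorP α s l τ → CfgMap ι T (actK s l τ) → α ∈ D) :
    SD Φ D = A8 c ∨ SD Φ D = A16 c := by
  have c0 := cls_zero h hG hΦ hD
  have c1 : ∀ x, qx x = (c, true) → Φ x ∈ D := by
    intro x hx
    refine hM _ _ _ _ (hΦ x) (hm _ fun κ => ?_)
    rw [h.act, hx]
    rfl
  have hpos : ∀ x, Φ x ∈ D →
      qx x = (0, false) ∨ qx x = (2, false) ∨ qx x = (c, true) ∨ qx x = ((c + 2) % 4, true) := by
    intro x hx
    have h1 := hI (Φ x) hx _ _ _ (hΦ x) v hvT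
    rw [h.act] at h1
    have h2 := hT _ h1
    have h3 := qx_lt x
    have h0 : ι ^ (qx x).1 * tb (qx x).2 v ≠ 0 := by
      refine mul_ne_zero (pow_ne_zero _ ?_) (by simpa using hv)
      intro h1
      have := h.sq
      rw [h1] at this
      simp at this
    have h4 := h2.resolve_left h0
    cases hb : (qx x).2 with
    | false =>
      rw [hb, tb_false] at h4
      rcases h.pm hv h4 with h5 | h5
      · exact Or.inl (Prod.ext (show (qx x).1 = 0 by omega) hb)
      · exact Or.inr (Or.inl (Prod.ext (show (qx x).1 = 2 by omega) hb))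
    | true =>
      rw [hb, tb_true, hsv, ← mul_assoc, ← pow_add] at h4
      rcases h.pm hv h4 with h5 | h5
      · have h6 : (qx x).1 = c ∨ (qx x).1 = (c + 2) % 4 := by omega
        rcases h6 with h6 | h6
        · exact Or.inr (Or.inr (Or.inl (Prod.ext h6 hb)))
        · exact Or.inr (Or.inr (Or.inr (Prod.ext h6 hb)))
      · have h6 : (qx x).1 = c ∨ (qx x).1 = (c + 2) % 4 := by omega
        rcases h6 with h6 | h6
        · exact Or.inr (Or.inr (Or.inl (Prod.ext h6 hb)))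
        · exact Or.inr (Or.inr (Or.inr (Prod.ext h6 hb)))
  by_cases hex : ∃ x, Φ x ∈ D ∧ (qx x = (2, false) ∨ qx x = ((c + 2) % 4, true))
  · right
    obtain ⟨x, hx, hx'⟩ := hex
    have h24 : (2 : ℕ) < 4 := by norm_num
    have hc4 : (c + 2) % 4 < 4 := Nat.mod_lt _ (by norm_num)
    have both : (∀ x, qx x = (2, false) → Φ x ∈ D) ∧ (∀ x, qx x = ((c + 2) % 4, true) → Φ x ∈ D) := by
      rcases hx' with hx' | hx'
      · have c2 : ∀ y, qx y = (2, false) → Φ y ∈ D := fun y hy => cls_eq h hG hΦ hDT hD (hx'.trans hy.symm) hx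
        refine ⟨c2, ?_⟩
        have c3 := cls_mul h hG hΦ hDT hD (a := (2, false)) (b := (c, true)) h24 hc c2 c1
        intro y hy
        refine c3 y (hy.trans (Prod.ext ?_ rfl))
        show (c + 2) % 4 = (2 + 1 * c) % 4
        omega
      · have c2 : ∀ y, qx y = ((c + 2) % 4, true) → Φ y ∈ D :=
          fun y hy => cls_eq h hG hΦ hDT hD (hx'.trans hy.symm) hx
        refine ⟨?_, c2⟩
        have c3 := cls_mul h hG hΦ hDT hD (a := ((c + 2) % 4, true)) (b := (c, true)) hc4 hc c2 c1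
        intro y hy
        refine c3 y (hy.trans (Prod.ext ?_ rfl))
        show 2 = ((c + 2) % 4 + 3 * c) % 4
        omega
    ext y
    rw [mem_SD]
    unfold A16
    rw [Finset.mem_filter]
    constructor
    · intro hy
      exact ⟨Finset.mem_univ _, hpos y hy⟩
    · rintro ⟨_, hy | hy | hy | hy⟩
      · exact c0 y hy
      · exact both.1 y hy
      · exact c1 y hy
      · exact both.2 y hy
  · left
    ext y
    rw [mem_SD]
    unfold A8
    rw [Finset.mem_filter]
    constructor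
    · intro hy
      refine ⟨Finset.mem_univ _, ?_⟩
      rcases hpos y hy with h1 | h1 | h1 | h1
      · exact Or.inl h1
      · exact absurd ⟨y, hy, Or.inl h1⟩ hex
      · exact Or.inr h1
      · exact absurd ⟨y, hy, Or.inr h1⟩ hex
    · rintro ⟨_, hy | hy⟩
      · exact c0 y hy
      · exact c1 y hy

theorem main5 (h : Nine K ι) (hG : HasAll K) {Φ : X → MulAut (PG K)} (hΦ : ∀ x, Par ι (Φ x) x)
    {D : Subgroup (MulAut (PG K))} (hDT : D ≤ TP K)
    (hD : HasTorP D (fun t => t ^ 2) (fun t => (t * star t)⁻¹))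
    (hM : ∀ (α : MulAut (PG K)) (s l : K) (τ : K ≃+* K), IsTorP α s l τ → CfgMap ι 5 (actK s l τ) → α ∈ D) :
    SD Φ D = Finset.univ := by
  have c0 := cls_zero h hG hΦ hD
  have c1 : ∀ x, qx x = (0, true) → Φ x ∈ D := by
    intro x hx
    refine hM _ _ _ _ (hΦ x) (Or.inl fun κ => ?_)
    rw [h.act, hx]
    show ι ^ 0 * star κ = star κ
    rw [pow_zero, one_mul]
  have c2 : ∀ x, qx x = (1, false) → Φ x ∈ D := by
    intro x hx
    refine hM _ _ _ _ (hΦ x) (Or.inr (Or.inr fun κ => ?_))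
    rw [h.act, hx]
    show ι ^ 1 * κ = ι * κ
    rw [pow_one]
  have c3 := cls_mul h hG hΦ hDT hD (a := (1, false)) (b := (1, false)) (by norm_num) (by norm_num) c2 c2
  have c4 := cls_mul h hG hΦ hDT hD (a := (2, false)) (b := (1, false)) (by norm_num) (by norm_num) c3 c2
  have c5 := cls_mul h hG hΦ hDT hD (a := (1, false)) (b := (0, true)) (by norm_num) (by norm_num) c2 c1
  have c6 := cls_mul h hG hΦ hDT hD (a := (2, false)) (b := (0, true)) (by norm_num) (by norm_num) c3 c1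
  have c7 := cls_mul h hG hΦ hDT hD (a := (3, false)) (b := (0, true)) (by norm_num) (by norm_num) c4 c1
  rw [Finset.eq_univ_iff_forall]
  intro x
  rw [mem_SD]
  have h1 := qx_lt x
  have h2 : (qx x).1 = 0 ∨ (qx x).1 = 1 ∨ (qx x).1 = 2 ∨ (qx x).1 = 3 := by omega
  cases hb : (qx x).2 with
  | false =>
    rcases h2 with h2 | h2 | h2 | h2
    · exact c0 x (Prod.ext h2 hb)
    · exact c2 x (Prod.ext h2 hb)
    · exact c3 x (Prod.ext h2 hb)
    · exact c4 x (Prod.ext h2 hb)
  | true =>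
    rcases h2 with h2 | h2 | h2 | h2
    · exact c1 x (Prod.ext h2 hb)
    · exact c5 x (Prod.ext h2 hb)
    · exact c6 x (Prod.ext h2 hb)
    · exact c7 x (Prod.ext h2 hb)

end

/-- (3T) -/
theorem stThreeT (hG : StGrp.{u}) : StThreeT.{u} := by
  intro K _ _ p n hK hq ι hι
  have h := nine_of hK hq hι
  obtain ⟨-, -, g3, g4, -⟩ := hG hK
  have hA : HasAll K := ⟨g3, g4⟩
  choose Φ hΦ using h.exists_aut hA
  have hX : (Finset.univ : Finset X).card = 32 := by rfl
  refine ⟨?_, H776.P4.cfg_shape hK hq hι, ?_, ?_⟩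
  · rw [card_D h hA hΦ (le_refl (TP K))]
    have h1 : SD Φ (TP K) = Finset.univ := by
      rw [Finset.eq_univ_iff_forall]
      exact fun x => mem_SD.mpr (par_mem (hΦ x))
    rw [h1, hX]
  · have h1 := hΦ (1, false, false)
    refine ⟨_, _, _, _, h1, ?_, ?_⟩
    · have h2 : ∀ y, actK ((1 + ι) ^ ((1 : Fin 8), false, false).1.val) (lb ((1 : Fin 8), false, false).2.1)
          (tb ((1 : Fin 8), false, false).2.2) y = ι * y := by
        intro y
        have := h.act (1, false, false) y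
        rw [this]
        show ι ^ 1 * y = ι * y
        rw [pow_one]
      ext x
      constructor
      · intro hx
        have hx' : x ∈ ({0, 1, -1} : Set K) := hx
        have hx2 : x = 0 ∨ x = 1 ∨ x = -1 := by simpa using hx'
        rcases hx2 with rfl | rfl | rfl
        · exact ⟨0, by show (0 : K) ∈ ({0, ι, -ι} : Set K); simp, by rw [h2]; simp⟩
        · exact ⟨-ι, by show (-ι : K) ∈ ({0, ι, -ι} : Set K); simp, by rw [h2]; linear_combination h.sq⟩
        · exact ⟨ι, by show (ι : K) ∈ ({0, ι, -ι} : Set K); simp, by rw [h2]; linear_combination -h.sq⟩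
      · rintro ⟨y, hy, rfl⟩
        have hy' : y ∈ ({0, ι, -ι} : Set K) := hy
        have hy2 : y = 0 ∨ y = ι ∨ y = -ι := by simpa using hy'
        rw [h2]
        show _ ∈ ({0, 1, -1} : Set K)
        rcases hy2 with rfl | rfl | rfl
        · simp
        · rw [h.sq]
          simp
        · rw [mul_neg, h.sq]
          simp
    · have h2 : ∀ y, actK ((1 + ι) ^ ((1 : Fin 8), false, false).1.val) (lb ((1 : Fin 8), false, false).2.1)
          (tb ((1 : Fin 8), false, false).2.2) y = ι * y := by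
        intro y
        have := h.act (1, false, false) y
        rw [this]
        show ι ^ 1 * y = ι * y
        rw [pow_one]
      ext x
      constructor
      · intro hx
        have hx' : x ∈ ({1 + ι, -(1 + ι)} : Set K) := hx
        have hx2 : x = 1 + ι ∨ x = -(1 + ι) := by simpa using hx'
        rcases hx2 with rfl | rfl
        · exact ⟨1 - ι, by show (1 - ι : K) ∈ ({1 - ι, -(1 - ι)} : Set K); simp, by
            rw [h2]; linear_combination h.sq⟩
        · exact ⟨-(1 - ι), by show (-(1 - ι) : K) ∈ ({1 - ι, -(1 - ι)} : Set K); simp, by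
            rw [h2]; linear_combination -h.sq⟩
      · rintro ⟨y, hy, rfl⟩
        have hy' : y ∈ ({1 - ι, -(1 - ι)} : Set K) := hy
        have hy2 : y = 1 - ι ∨ y = -(1 - ι) := by simpa using hy'
        rw [h2]
        show _ ∈ ({1 + ι, -(1 + ι)} : Set K)
        rcases hy2 with rfl | rfl
        · left
          linear_combination -h.sq
        · right
          show _ = -(1 + ι)
          linear_combination h.sq
  · intro T D hDT hD hI hM
    have hcase : ∀ (D : Subgroup (MulAut (PG K))), D ≤ TP K →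
        HasTorP D (fun t => t ^ 2) (fun t => (t * star t)⁻¹) → InvK D (Cfg ι T) →
        (∀ (α : MulAut (PG K)) (s l : K) (τ : K ≃+* K), IsTorP α s l τ → CfgMap ι T (actK s l τ) → α ∈ D) →
        ∀ (_ : T = 5), SD Φ D = Finset.univ := by
      rintro D hDT hD hI hM rfl
      exact main5 h hA hΦ hDT hD hM
    refine ⟨fun hT => ?_, fun hT => ?_, ?_⟩
    · obtain ⟨c, hc, v, hv, hvT, hw, hsv, hm⟩ := cfg_data h T hT
      rw [card_D h hA hΦ hDT]
      rcases main14 h hA hΦ T hc hv hvT hw hsv hm hDT hD hI hM with h1 | h1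
      · rw [h1, card_A8 hc]
        exact Or.inl rfl
      · rw [h1, card_A16 hc]
        exact Or.inr rfl
    · rw [card_D h hA hΦ hDT, hcase D hDT hD hI hM hT, hX]
    · intro D' hT0 hDT' hD' hI' hM' hcard
      refine eq_of_SD h hA hΦ hDT hDT' ?_
      have hT : (T = 1 ∨ T = 2 ∨ T = 3 ∨ T = 4) ∨ T = 5 := by
        revert hT0
        clear * -
        revert T
        decide
      rcases hT with hT | hT
      · rw [card_D h hA hΦ hDT, card_D h hA hΦ hDT'] at hcard
        obtain ⟨c, hc, v, hv, hvT, hw, hsv, hm⟩ := cfg_data h T hT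
        rcases main14 h hA hΦ T hc hv hvT hw hsv hm hDT hD hI hM with h1 | h1 <;>
          rcases main14 h hA hΦ T hc hv hvT hw hsv hm hDT' hD' hI' hM' with h2 | h2
        · rw [h1, h2]
        · rw [h1, h2, card_A8 hc, card_A16 hc] at hcard
          omega
        · rw [h1, h2, card_A8 hc, card_A16 hc] at hcard
          omega
        · rw [h1, h2]
      · rw [hcase D hDT hD hI hM hT, hcase D' hDT' hD' hI' hM' hT]

end Cfsg.Agent.H473.P4
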